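import Cfsg.Agent.D4AltSection.Sylow
import Cfsg.Agent.D4AltSection.Config
import Cfsg.Agent.AltExc.G2Small

/-!
No alternating section of degree eight in `³D₄(q)` in characteristic five.
-/

set_option autoImplicit false

namespace CfsgLib.D4AltSection

open Cfsg.Lie CfsgLib.AltExc CfsgLib.AltLinear
open scoped commutatorElement

variable {K : Type*} [Field K] [Fintype K] {q : ℕ} (hq : IsPrimePow q) (hK : Fintype.card K = q ^ 3)

/-- An abelian group of exponent three generated by three elements has at most 27 elements. -/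
theorem card_le_27 {Q : Type*} [Group Q] (hexp : ∀ x : Q, x ^ 3 = 1) (hc : ∀ x y : Q, x * y = y * x) (a b c : Q)
    (h : Subgroup.closure ({a, b, c} : Set Q) = ⊤) : Nat.card Q ≤ 27 := by
  letI : CommGroup Q := { (inferInstance : Group Q) with mul_comm := hc }
  have hsurj : Function.Surjective fun f : Fin 3 × Fin 3 × Fin 3 => a ^ (f.1 : ℕ) * b ^ (f.2.1 : ℕ) * c ^ (f.2.2 : ℕ) := by
    intro x
    have hmod : ∀ (y : Q) (n : ℕ), y ^ n = y ^ (n % 3) := fun y n => pow_eq_pow_mod n (hexp y)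
    suffices ∃ i j k : ℕ, a ^ i * b ^ j * c ^ k = x by
      obtain ⟨i, j, k, rfl⟩ := this
      exact ⟨(⟨i % 3, Nat.mod_lt _ (by norm_num)⟩, ⟨j % 3, Nat.mod_lt _ (by norm_num)⟩,
        ⟨k % 3, Nat.mod_lt _ (by norm_num)⟩), by simp only [← hmod]⟩
    have hx : x ∈ Subgroup.closure ({a, b, c} : Set Q) := h ▸ Subgroup.mem_top x
    induction hx using Subgroup.closure_induction with
    | mem y hy =>
      rcases hy with rfl | rfl | rfl
      exacts [⟨1, 0, 0, by simp⟩, ⟨0, 1, 0, by simp⟩, ⟨0, 0, 1, by simp⟩]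
    | one => exact ⟨0, 0, 0, by simp⟩
    | mul y z _ _ hy hz =>
      obtain ⟨i, j, k, rfl⟩ := hy
      obtain ⟨i', j', k', rfl⟩ := hz
      exact ⟨i + i', j + j', k + k', by simp only [pow_add, mul_comm, mul_left_comm, mul_assoc]⟩
    | inv y _ hy =>
      obtain ⟨i, j, k, rfl⟩ := hy
      refine ⟨2 * i, 2 * j, 2 * k, eq_inv_of_mul_eq_one_left ?_⟩
      rw [show a ^ (2 * i) * b ^ (2 * j) * c ^ (2 * k) * (a ^ i * b ^ j * c ^ k) =
        a ^ (3 * i) * b ^ (3 * j) * c ^ (3 * k) by
          rw [show 3 * i = 2 * i + i by ring, show 3 * j = 2 * j + j by ring, show 3 * k = 2 * k + k by ring]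
          simp only [pow_add, mul_comm, mul_left_comm, mul_assoc],
        pow_mul, pow_mul, pow_mul, hexp, hexp, hexp, one_pow, one_pow, one_pow, one_mul, one_mul]
  refine (Nat.card_le_card_of_surjective _ hsurj).trans ?_
  simp [Nat.card_eq_fintype_card]

include hq hK in
/-- Three-elements of the kernel are central. -/
theorem three_central (h3 : 3 ∣ q - 1) {H : Type*} [Group H] [Finite H] (i : H →* ↥(twistedD4 K q))
    (hi : Function.Injective i) (φ : H →* Alt 8) (hφ : Function.Surjective φ)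
    (hmin : ∀ M : Subgroup H, M ≠ ⊤ → M.map φ ≠ ⊤) :
    ∀ x : H, φ x = 1 → (∃ k : ℕ, x ^ 3 ^ k = 1) → x ∈ Subgroup.center H := by
  classical
  haveI : Fact (Nat.Prime 3) := ⟨by norm_num⟩
  have hperf := perfect_of_min (by norm_num) hφ hmin
  haveI : Group.IsNilpotent (frattini H) := frattini_nilpotent
  haveI hKnil : Group.IsNilpotent φ.ker :=
    nilpotent_of_mulEquiv (Subgroup.subgroupOfEquivOfLe (map_ne_top_of_min hφ hmin))
  obtain ⟨P⟩ : Nonempty (Sylow 3 φ.ker) := Sylow.nonempty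
  haveI hPn : (P : Subgroup φ.ker).Normal := by
    have := (Group.isNilpotent_of_finite_tfae (G := φ.ker)).out 0 3
    exact this.1 hKnil 3 ⟨by norm_num⟩ P
  haveI : (P : Subgroup φ.ker).Characteristic := P.characteristic_of_normal hPn
  set P' := (P : Subgroup φ.ker).map φ.ker.subtype with hP'
  haveI hP'n : P'.Normal := inferInstance
  have hP'p : IsPGroup 3 P' := P.2.map _
  suffices hle : P' ≤ Subgroup.center H by
    rintro x hx ⟨k, hk⟩
    refine hle ⟨⟨x, hx⟩, ?_, rfl⟩
    haveI := Sylow.unique_of_normal P hPn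
    have hz : IsPGroup 3 (Subgroup.zpowers (⟨x, hx⟩ : φ.ker)) := by
      obtain ⟨e, -, he⟩ := (Nat.dvd_prime_pow (show Nat.Prime 3 by norm_num)).1
        (orderOf_dvd_of_pow_eq_one (show (⟨x, hx⟩ : φ.ker) ^ 3 ^ k = 1 from Subtype.ext hk))
      exact IsPGroup.of_card (n := e) (by rw [Nat.card_zpowers, he])
    obtain ⟨P₂, hP₂⟩ := hz.exists_le_sylow
    rw [Subsingleton.elim P₂ P] at hP₂
    exact hP₂ (Subgroup.mem_zpowers _)
  by_contra hPZ
  obtain ⟨N, ⟨hNn, hNP, hNZ⟩, hNmin⟩ := exists_minimal_of_wellFoundedLT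
    (fun N : Subgroup H => N.Normal ∧ N ≤ P' ∧ ¬ N ≤ Subgroup.center H) ⟨P', hP'n, le_rfl, hPZ⟩
  haveI := hNn
  have hNp : IsPGroup 3 N := hP'p.to_le hNP
  have hsmallN : (∀ x ∈ N, ∀ y ∈ N, ⁅x, y⁆ ∈ Subgroup.center H) ∧ ∀ x ∈ N, x ^ 3 ∈ Subgroup.center H := by
    let S : Set H := {z | ∃ x ∈ N, ∃ y ∈ N, z = ⁅x, y⁆} ∪ {z | ∃ x ∈ N, z = x ^ 3}
    haveI : (Subgroup.closure S).Normal := normal_closure_of_invariant S fun g z hz => by
      rcases hz with ⟨x, hx, y, hy, rfl⟩ | ⟨x, hx, rfl⟩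
      · exact Or.inl ⟨_, hNn.conj_mem x hx g, _, hNn.conj_mem y hy g, by simp only [commutatorElement_def]; group⟩
      · exact Or.inr ⟨_, hNn.conj_mem x hx g, by rw [conj_pow]⟩
    suffices hle : Subgroup.closure S ≤ Subgroup.center H from
      ⟨fun x hx y hy => hle (Subgroup.subset_closure (Or.inl ⟨x, hx, y, hy, rfl⟩)),
        fun x hx => hle (Subgroup.subset_closure (Or.inr ⟨x, hx, rfl⟩))⟩
    by_contra hle
    have hNne : Nontrivial N := by
      rw [Subgroup.nontrivial_iff_ne_bot]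
      rintro rfl
      exact hNZ bot_le
    obtain ⟨a, ha⟩ := IsPGroup.iff_card.1 hNp
    have ha1 : 1 ≤ a := by
      by_contra h0
      rw [show a = 0 by omega, pow_zero] at ha
      have := Finite.one_lt_card (α := N)
      omega
    obtain ⟨M, hM⟩ := Sylow.exists_subgroup_card_pow_prime 3 (n := a - 1) (G := N)
      (by rw [ha]; exact pow_dvd_pow 3 (Nat.sub_le a 1))
    have hidx : M.index = 3 := by
      have h1 := M.card_mul_index
      rw [hM, ha] at h1
      refine Nat.eq_of_mul_eq_mul_left (pow_pos (show 0 < 3 by norm_num) (a - 1)) ?_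
      rw [h1, ← pow_succ, Nat.sub_add_cancel ha1]
    haveI : M.Normal := Subgroup.normal_of_index_eq_minFac_card (by
      rw [hidx, ha, Nat.pow_minFac (by omega), Nat.prime_three.minFac_eq])
    have hQ : Nat.card (N ⧸ M) = 3 := by rw [← Subgroup.index_eq_card, hidx]
    haveI : IsCyclic (N ⧸ M) := isCyclic_of_prime_card hQ
    have hleM : Subgroup.closure S ≤ M.map N.subtype := by
      rw [Subgroup.closure_le]
      rintro z (⟨x, hx, y, hy, rfl⟩ | ⟨x, hx, rfl⟩)
      · refine ⟨⁅(⟨x, hx⟩ : N), ⟨y, hy⟩⁆, ?_, map_commutatorElement N.subtype _ _⟩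
        rw [SetLike.mem_coe, ← QuotientGroup.eq_one_iff, ← QuotientGroup.mk'_apply, map_commutatorElement,
          commutatorElement_eq_one_iff_mul_comm]
        exact IsMulCommutative.is_comm.comm _ _
      · refine ⟨(⟨x, hx⟩ : N) ^ 3, ?_, rfl⟩
        rw [SetLike.mem_coe, ← QuotientGroup.eq_one_iff, ← QuotientGroup.mk'_apply, map_pow, ← hQ, pow_card_eq_one']
    have hleN : Subgroup.closure S ≤ N := hleM.trans (Subgroup.map_subtype_le M)
    have := hNmin ⟨inferInstance, hleN.trans hNP, hle⟩ hleN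
    have hMtop : M = ⊤ := eq_top_iff.2 fun x _ => by
      obtain ⟨y, hy, hyx⟩ := hleM (this x.2)
      rwa [← Subtype.ext hyx]
    rw [hMtop, Subgroup.index_top] at hidx
    norm_num at hidx
  obtain ⟨hcomm, hpow⟩ := hsmallN
  let π := QuotientGroup.mk' (Subgroup.center H)
  haveI : (N.map π).Normal := hNn.map π (QuotientGroup.mk'_surjective _)
  obtain ⟨a', b', c', ha, hb, hc, hle⟩ := three_gen hq hK h3 (N.map i) (hNp.map i)
  obtain ⟨a, ha, rfl⟩ := ha
  obtain ⟨b, hb, rfl⟩ := hb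
  obtain ⟨c, hc, rfl⟩ := hc
  have hgen : N ≤ Subgroup.closure {a, b, c} := fun x hx => by
    have h1 := hle (Subgroup.mem_map_of_mem i hx)
    rwa [show ({i a, i b, i c} : Set ↥(twistedD4 K q)) = i '' {a, b, c} by simp [Set.image_insert_eq],
      ← MonoidHom.map_closure, Subgroup.mem_map_iff_mem hi] at h1
  let A : ↥(N.map π) := ⟨π a, a, ha, rfl⟩
  let B : ↥(N.map π) := ⟨π b, b, hb, rfl⟩
  let C : ↥(N.map π) := ⟨π c, c, hc, rfl⟩
  have htop : Subgroup.closure ({A, B, C} : Set ↥(N.map π)) = ⊤ := by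
    refine eq_top_iff.2 fun x _ => ?_
    obtain ⟨y, hy, hyx⟩ := x.2
    rw [← Subgroup.mem_map_iff_mem (N.map π).subtype_injective, MonoidHom.map_closure,
      show (N.map π).subtype '' ({A, B, C} : Set ↥(N.map π)) = π '' {a, b, c} by simp [Set.image_insert_eq, A, B, C],
      ← MonoidHom.map_closure]
    exact ⟨y, hgen hy, hyx⟩
  have h27 : Nat.card ↥(N.map π) ≤ 27 := card_le_27
    (by
      rintro ⟨_, x, hx, rfl⟩
      refine Subtype.ext ?_
      show π x ^ 3 = 1
      rw [← map_pow]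
      exact (QuotientGroup.eq_one_iff _).2 (hpow x hx))
    (by
      rintro ⟨_, x, hx, rfl⟩ ⟨_, y, hy, rfl⟩
      refine Subtype.ext ?_
      show π x * π y = π y * π x
      rw [← commutatorElement_eq_one_iff_mul_comm, ← map_commutatorElement]
      exact (QuotientGroup.eq_one_iff _).2 (hcomm x hx y hy)) A B C htop
  haveI : Finite (MulAut ↥(N.map π)) := Finite.of_injective (fun f => (⇑f)) DFunLike.coe_injective
  have hsmall : Nat.card (MulAut ↥(N.map π)) < 20160 := by
    have hinj : Function.Injective fun f : MulAut ↥(N.map π) => (f A, f B, f C) := fun f f' e => by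
      simp only [Prod.mk.injEq] at e
      have h1 : f.toMonoidHom = f'.toMonoidHom := MonoidHom.eq_of_eqOn_dense htop (by
        rintro x (rfl | rfl | rfl)
        · exact e.1
        · exact e.2.1
        · exact e.2.2)
      exact MulEquiv.ext fun x => DFunLike.congr_fun h1 x
    have := Nat.card_le_card_of_injective _ hinj
    rw [Nat.card_prod, Nat.card_prod] at this
    have h81 := Nat.mul_le_mul h27 (Nat.mul_le_mul h27 h27)
    omega
  have htriv := eq_one_of_small hφ hmin hsmall (MulAut.conjNormal.comp π)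
  refine hNZ fun x hx => mem_center_of_commutator_mem hperf fun g => ?_
  have h1 : π g * π x * (π g)⁻¹ = π x := congrArg Subtype.val
    (DFunLike.congr_fun (htriv g) (⟨π x, x, hx, rfl⟩ : ↥(N.map π)))
  refine (QuotientGroup.eq_one_iff (N := Subgroup.center H) _).1 ?_
  show π ⁅g, x⁆ = 1
  rw [map_commutatorElement, commutatorElement_def, h1, mul_inv_cancel]

include hq hK in
/-- No alternating section of degree eight in characteristic five. -/
theorem no_alt8 [CharP K 5] (h3 : 3 ∣ q - 1) {H : Type*} [Group H] [Finite H] (i : H →* ↥(twistedD4 K q))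
    (hi : Function.Injective i) (φ : H →* Alt 8) (hφ : Function.Surjective φ) : False := by
  classical
  haveI : Fact (Nat.Prime 3) := ⟨by norm_num⟩
  obtain ⟨H', φ', hφ', hmin⟩ := exists_min (⊤ : Subgroup H) (φ.comp (⊤ : Subgroup H).subtype)
    (fun y => by obtain ⟨x, hx⟩ := hφ y; exact ⟨⟨x, Subgroup.mem_top x⟩, hx⟩)
  set j := i.comp H'.subtype with hj
  have hji : Function.Injective j := hi.comp H'.subtype_injective
  obtain ⟨a, b, s, v, haφ, hbφ, ha3, hb3, hab, hsa, hva, hvb⟩ :=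
    exists_three_config φ' hφ' (three_central hq hK h3 j hji φ' hφ' hmin)
  have h8 : (8 : K) ≠ 0 := fun e => by
    have := (CharP.natCast_eq_natCast K 5 (a := 8) (b := 0)).1 (by simpa using e)
    exact absurd this (by decide)
  obtain ⟨ω, hω⟩ : ∃ ω : Kˣ, orderOf ω = 3 := by
    refine exists_prime_orderOf_dvd_card' 3 ?_
    rw [Nat.card_units, Nat.card_eq_fintype_card, hK]
    exact h3.trans (Nat.sub_dvd_pow_sub_pow q 1 3 |>.trans (by rw [one_pow]))
  let g : H' → GL chevD4.Idx K := fun x => (j x : GL chevD4.Idx K)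
  have gmul : ∀ x y, g (x * y) = g x * g y := fun x y => by simp [g]
  have gmem : ∀ x, g x ∈ chevD4.group K := fun x => twisted_le_group hq hK (j x).2
  have gthree : ∀ x : H', x ^ 3 = 1 → g x ^ 3 = 1 := fun x hx => by
    show (j x : GL chevD4.Idx K) ^ 3 = 1
    rw [← SubgroupClass.coe_pow, ← map_pow, hx, map_one]; rfl
  obtain ⟨A, hA, hA3⟩ := exists_lift_three (gmem a) (gthree a ha3)
  obtain ⟨B, hB, hB3⟩ := exists_lift_three (gmem b) (gthree b hb3)
  obtain ⟨Sg, hS⟩ := exists_lift (gmem s)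
  obtain ⟨V, hV⟩ := exists_lift (gmem v)
  have hconj : ∀ (x : H') (X : GL I8 K), Lift (g x) X → ∀ (y : H') (Y : GL I8 K), Lift (g y) Y → Y ^ 3 = 1 →
      ∀ (z : H') (Z : GL I8 K), Lift (g z) Z → Z ^ 3 = 1 → x * y * x⁻¹ = z → X * Y * X⁻¹ = Z := by
    intro x X hX y Y hY hY3 z Z hZ hZ3 h
    refine lift_unique_three ?_ hZ (by rw [conj_pow, hY3, mul_one, mul_inv_cancel]) hZ3
    have h1 := lift_mul (lift_mul hX hY) (lift_inv hX)
    rwa [show g z = g x * g y * (g x)⁻¹ by rw [← h]; simp [g]]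
  have hAB : A * B = B * A := mul_inv_eq_iff_eq_mul.1
    (hconj a A hA b B hB hB3 b B hB hB3 (by rw [hab, mul_inv_cancel_right]))
  have hB2 : Lift (g (b * b)) (B * B) := by rw [gmul]; exact lift_mul hB hB
  have hB23 : (B * B) ^ 3 = 1 := by rw [← sq, ← pow_mul, mul_comm, pow_mul, hB3, one_pow]
  have hb2 : b⁻¹ = b * b := inv_eq_of_mul_eq_one_left (by rw [← hb3, pow_three, mul_assoc])
  have hVA : V * A = A * V := mul_inv_eq_iff_eq_mul.1 (hconj v V hV a A hA hA3 a A hA hA3 hva)
  have hVB : V * B = B * B * V := mul_inv_eq_iff_eq_mul.1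
    (hconj v V hV b B hB hB3 (b * b) (B * B) hB2 hB23 (by rw [hvb, hb2]))
  have hSA : Sg * A * Sg⁻¹ = B := hconj s Sg hS a A hA hA3 b B hB hB3 hsa
  have hne : ∀ (x : H') (y : Alt 8), φ' x = y → y ≠ 1 → j x ≠ 1 := fun x y hx hy e =>
    hy (by rw [← hx, show x = 1 from hji (e.trans (map_one j).symm), map_one])
  have hna := nn_three hq hK h3 h8 hω (j a) (by rw [← map_pow, ha3, map_one]) (hne a _ haφ (by decide)) A hA hA3
  have hAB3 : (A * B) ^ 3 = 1 := by rw [(show Commute A B from hAB).mul_pow, hA3, hB3, one_mul]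
  have hnc := nn_three hq hK h3 h8 hω (j (a * b))
    (by rw [← map_pow, (show Commute a b from hab).mul_pow, ha3, hb3, one_mul, map_one])
    (hne (a * b) _ (by rw [map_mul, haφ, hbφ]) (by decide)) (A * B)
    (show Lift (g (a * b)) (A * B) by rw [gmul]; exact lift_mul hA hB) hAB3
  refine no_config hω (A : Matrix I8 I8 K) (B : Matrix I8 I8 K) (V : Matrix I8 I8 K) (val_pow_three hA3)
    (val_pow_three hB3) ?_ ?_ ?_ (isometry_gram (lift_isometry hA)) (isometry_gram (lift_isometry hB))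
    (isometry_gram (lift_isometry hV)) (lift_det hV) hna ?_ (by rwa [Units.val_mul] at hnc) ?_
  · rw [← Units.val_mul, hAB, Units.val_mul]
  · rw [← Units.val_mul, hVA, Units.val_mul]
  · rw [← Units.val_mul, hVB, Units.val_mul, Units.val_mul]
  · rw [← hSA, nn_conj]
  · rw [← Units.val_mul, ← Units.val_mul, ← Units.val_mul, show A * (B * B) = V * (A * B) * V⁻¹ by
      rw [show V * (A * B) * V⁻¹ = (V * A) * (B * V⁻¹) by group, hVA,
        show A * V * (B * V⁻¹) = A * (V * B * V⁻¹) by group, hVB, mul_inv_cancel_right], nn_conj]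

end CfsgLib.D4AltSection
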