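import Cfsg.Agent.D4AltSection.Base
import Cfsg.Agent.AltExc.Setup

/-!
No element of order five of `³D₄(q)` is conjugate to its square, when five divides `q - 1`.
-/

set_option autoImplicit false

namespace CfsgLib.D4AltSection

open Cfsg.Lie CfsgLib.Chevalley CfsgLib.TwistedLie CfsgLib.F4AltSection CfsgLib.AltExc CfsgLib.AltLinear

local notation "S" => sysD4

/-- The values of a symmetric root function, in terms of those on the two orbits of fundamental roots. -/
def ev5 (x y : ZMod 5) (r : Fin chevD4.nroots) : ZMod 5 :=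
  (tabD4.coord 4 0 r : ZMod 5) * x + (tabD4.coord 4 1 r : ZMod 5) * y + (tabD4.coord 4 2 r : ZMod 5) * x +
    (tabD4.coord 4 3 r : ZMod 5) * x

theorem vec_eq (m r : ℕ) : sysD4.vec m r = tabD4.coord 4 m r := rfl

theorem ev5_balanced : ∀ x y : ZMod 5, (∀ l : ZMod 5,
    (Finset.univ.filter fun r => 2 * ev5 x y r = l).card = (Finset.univ.filter fun r => ev5 x y r = l).card) →
    x = 0 ∧ y = 0 := by decide +kernel

variable {K : Type*} [Field K] [Fintype K] {q : ℕ} (hq : IsPrimePow q) (hK : Fintype.card K = q ^ 3)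

include hq hK in
theorem not_conj_sq (h5 : 5 ∣ q - 1) (z x : ↥(twistedD4 K q)) (hz : orderOf z = 5) (h : x * z * x⁻¹ = z ^ 2) :
    False := by
  haveI : Fact (Nat.Prime 5) := ⟨by norm_num⟩
  haveI : Finite ↥(twistedD4 K q) := inferInstance
  obtain ⟨g, hg⟩ := exists_conj_into (torT K q) (index_torT_five hq hK h5) (P := Subgroup.zpowers z)
    (IsPGroup.of_card (n := 1) (by rw [Nat.card_zpowers, hz, pow_one]))
  set t := g * z * g⁻¹ with ht
  set y := g * x * g⁻¹ with hy
  have hyt : y * t * y⁻¹ = t ^ 2 := by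
    rw [ht, hy, conj_pow, show g * x * g⁻¹ * (g * z * g⁻¹) * (g * x * g⁻¹)⁻¹ = g * (x * z * x⁻¹) * g⁻¹ by group, h]
  have htT : t ∈ torT K q := hg z (Subgroup.mem_zpowers z)
  obtain ⟨c, hc⟩ := exists_tor htT
  obtain ⟨n, hn⟩ := exists_monomial_conj S (twisted_le_group hq hK y.2)
  have e := congrArg (Subtype.val : ↥(twistedD4 K q) → GL chevD4.Idx K) hyt
  simp only [Subgroup.coe_mul, Subgroup.coe_inv, Subgroup.coe_pow, ← hc, ← map_pow] at e
  have hcd : ∀ d : ℕ → Kˣ, tor chevD4 K d ∈ chevD4.diagonalSubgroup K := fun d => by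
    rw [Sys.diagonal_eq S]; exact ⟨d, rfl⟩
  have e2 := hn _ (hcd c) (by rw [e]; exact hcd _)
  rw [e] at e2
  set V : ℕ → Kˣ := torusVal chevD4 c with hV
  have hperm : ∀ s : Fin chevD4.nroots, torusVal chevD4 (c ^ 2) (Sys.perm S K n s) = V s := fun s =>
    torusVal_perm S n e2.symm s
  have hVpow : ∀ (k : ℕ) (s : ℕ), torusVal chevD4 (c ^ k) s = V s ^ k := fun k s => by
    simp only [hV, torusVal, Pi.pow_apply, ← Finset.prod_pow]
    refine Finset.prod_congr rfl fun j _ => ?_
    rw [← zpow_natCast, ← zpow_natCast (c j ^ _), ← zpow_mul, ← zpow_mul, mul_comm]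
  have hord : orderOf (tor chevD4 K c) = 5 := by
    rw [hc, Subgroup.orderOf_coe, ht, ← MulAut.conj_apply, MulEquiv.orderOf_eq, hz]
  have hV5 : ∀ s : ℕ, s < chevD4.nroots → V s ^ 5 = 1 := fun s hs => by
    have h' : tor chevD4 K (c ^ 5) = 1 := by rw [map_pow, ← hord, pow_orderOf_eq_one]
    have h'' := congrArg (fun M : GL chevD4.Idx K =>
      (M : Matrix chevD4.Idx chevD4.Idx K) (Sum.inr ⟨s, hs⟩) (Sum.inr ⟨s, hs⟩)) h'
    simp only [Sys.tor_val S, dg, Matrix.diagonal_apply_eq, Sum.elim_inr, Units.val_one,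
      Matrix.one_apply_eq, hVpow] at h''
    exact Units.ext (by simpa using h'')
  obtain ⟨t13, t12, -⟩ := torus_twist hq hK (c := c) (hc ▸ t.2)
  have hq1 : 1 ≤ q := hq.pos
  have u5 : ∀ s, s < chevD4.nroots → (V s : K) ^ 5 = 1 := fun s hs => by
    rw [← Units.val_pow_eq_pow_val, hV5 s hs, Units.val_one]
  have v13 : V 13 = V 18 := Units.ext (t13.trans (pow_eq_self h5 hq1 (u5 18 (by decide))))
  have v12 : V 12 = V 18 := Units.ext ((t12.trans (pow_eq_self h5 hq1 (u5 13 (by decide)))).trans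
    (congrArg Units.val v13))
  obtain ⟨ζ, hζ5, hlog⟩ : ∃ ζ : Kˣ, orderOf ζ = 5 ∧ ∀ s : Fin chevD4.nroots, ∃ e : ℤ, ζ ^ e = V s := by
    have hne : ∃ m : Fin 4, V (chevD4.simple m) ≠ 1 := by
      by_contra h
      push Not at h
      rw [Sys.tor_eq_one_of_simple S K c (fun i hi => by
        rw [← hV, h ⟨i, hi⟩, Units.val_one]), orderOf_one] at hord
      norm_num at hord
    obtain ⟨m₀, hm₀⟩ := hne
    refine ⟨_, orderOf_eq_prime (hV5 _ (Sys.simpleF S m₀).isLt) hm₀, fun s => ?_⟩
    rw [← Subgroup.mem_zpowers_iff, IsPrimitiveRoot.zpowers_eq (k := 5)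
      ((orderOf_eq_prime (hV5 _ (Sys.simpleF S m₀).isLt) hm₀) ▸ IsPrimitiveRoot.orderOf _), mem_rootsOfUnity]
    exact hV5 s s.isLt
  choose e he using hlog
  set f : Fin chevD4.nroots → ZMod 5 := fun s => (e s : ZMod 5) with hf
  have hcmp : ∀ a b : ℤ, ζ ^ a = ζ ^ b → (a : ZMod 5) = b := fun a b h => by
    rw [zpow_eq_zpow_iff_modEq, hζ5] at h
    exact (ZMod.intCast_eq_intCast_iff a b 5).mpr h
  have s0 : chevD4.simple 0 = 18 := by decide +kernel
  have s1 : chevD4.simple 1 = 14 := by decide +kernel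
  have s2 : chevD4.simple 2 = 13 := by decide +kernel
  have s3 : chevD4.simple 3 = 12 := by decide +kernel
  set X := f ⟨18, by decide⟩ with hX
  set Y := f ⟨14, by decide⟩ with hY
  have hlin : ∀ s : Fin chevD4.nroots, f s = ev5 X Y s := fun s => by
    simp only [hf, hX, hY, ev5, ← vec_eq, ← Int.cast_mul, ← Int.cast_add]
    refine hcmp _ _ ?_
    rw [he, hV, torusVal_vec S c s.isLt, show chevD4.rank = 4 from rfl]
    simp only [Finset.prod_range_succ, Finset.prod_range_zero, one_mul, zpow_add, s0, s1, s2, s3,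
      mul_comm (Sys.vec S _ _), zpow_mul, he, ← hV, v13, v12]
  have h2 : ∀ s, 2 * f (Sys.perm S K n s) = f s := fun s => by
    have h' := hperm s
    rw [hVpow] at h'
    have h'' := hcmp (e (Sys.perm S K n s) * 2) (e s) (by rw [zpow_mul, he, he]; exact h')
    simp only [hf]
    rw [← h']  at *
    rw [← h'']
    push_cast
    ring
  have hbal := ev5_balanced X Y fun l => by
    refine Finset.card_bij (fun s _ => (Sys.perm S K n)⁻¹ s) (fun s hs => ?_) (fun a _ b _ h => (Sys.perm S K n)⁻¹.injective h) ?_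
    · simp only [Finset.mem_filter, Finset.mem_univ, true_and] at hs ⊢
      rw [← hlin, ← h2, show (Sys.perm S K n) ((Sys.perm S K n)⁻¹ s) = s from Equiv.apply_symm_apply _ _, hlin, hs]
    · intro b hb
      refine ⟨Sys.perm S K n b, ?_, by simp⟩
      simp only [Finset.mem_filter, Finset.mem_univ, true_and] at hb ⊢
      rw [← hlin, h2, hlin, hb]
  have h0 : ∀ s, f s = 0 := fun s => by rw [hlin, hbal.1, hbal.2]; simp [ev5]
  have htor : tor chevD4 K c = 1 := Sys.tor_eq_one_of_simple S K c fun i hi => by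
    have h' := h0 (Sys.simpleF S ⟨i, hi⟩)
    simp only [hf, ZMod.intCast_zmod_eq_zero_iff_dvd] at h'
    obtain ⟨k, hk⟩ := h'
    have h'' := he (Sys.simpleF S ⟨i, hi⟩)
    rw [hk, zpow_mul, zpow_natCast, ← hζ5, pow_orderOf_eq_one, one_zpow] at h''
    rw [← hV]
    exact (congrArg Units.val h'').symm
  rw [htor, orderOf_one] at hord
  norm_num at hord

include hq hK in
/-- No alternating section of degree seven. -/
theorem no_alt7 (h5 : 5 ∣ q - 1) {H : Type*} [Group H] (i : H →* ↥(twistedD4 K q)) (hi : Function.Injective i)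
    (φ : H →* Alt 7) (hφ : Function.Surjective φ) : False := by
  haveI : Finite ↥(twistedD4 K q) := inferInstance
  haveI : Finite H := Finite.of_injective i hi
  haveI : Fact (Nat.Prime 5) := ⟨by norm_num⟩
  obtain ⟨z, y, hz, h⟩ := exists_conj_sq φ hφ fun P hP a ha b hb => hi (by
    obtain ⟨g, hg⟩ := exists_conj_into (torT K q) (index_torT_five hq hK h5) (hP.map i)
    have e := torT_comm (hg _ (Subgroup.mem_map_of_mem _ ha)) (hg _ (Subgroup.mem_map_of_mem _ hb))
    rw [map_mul, map_mul]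
    apply (MulAut.conj g).injective
    simpa only [MulAut.conj_apply, map_mul] using e)
  exact not_conj_sq hq hK h5 (i z) (i y) (by rw [orderOf_injective i hi, hz])
    (by rw [← map_inv, ← map_mul, ← map_mul, h, map_pow])

end CfsgLib.D4AltSection
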